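import Mathlib

/-!
# Enumerations in `SL(3, 3)` (helper266, piece (L2) of [S13] of (M,23), S4929)
-/

set_option autoImplicit false
set_option maxRecDepth 100000
set_option synthInstance.maxSize 2000
set_option synthInstance.maxHeartbeats 400000

namespace Cfsg.Agent.H266.M13

abbrev Mt := Matrix (Fin 3) (Fin 3) (ZMod 3)

/-- the matrices commuting with `T` -/
def MC (a b c d e : ZMod 3) : Mt := !![a, 0, 0; 0, b, c; 0, d, e]

/-- other block matrices -/
def MD (a b c d e : ZMod 3) : Mt := !![b, c, 0; d, e, 0; 0, 0, a]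

/-- upper triangular matrices -/
def MB (x u w y z v : ZMod 3) : Mt := !![x, y, z; 0, u, v; 0, 0, w]

def T : Mt := !![1, 0, 0; 0, 2, 0; 0, 0, 2]
def A4 : Mt := !![1, 0, 0; 0, 0, 1; 0, 2, 0]
def A6 : Mt := !![1, 0, 0; 0, 2, 1; 0, 0, 2]
def A8 : Mt := !![2, 0, 0; 0, 0, 1; 0, 1, 1]
def A8i : Mt := !![2, 0, 0; 0, 2, 1; 0, 1, 0]
def U1 : Mt := !![1, 0, 1; 0, 1, 0; 0, 0, 1]
def U2 : Mt := !![1, 1, 0; 0, 1, 1; 0, 0, 1]

theorem A8_mul : A8 * A8i = 1 ∧ A8i * A8 = 1 := by decide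

theorem bf1 : ∀ a b c d e : ZMod 3, a * (b * e - c * d) = 1 →
    MC a b c d e * MC a b c d e = 1 ∨ MC a b c d e * MC a b c d e * MC a b c d e = 1 ∨
    MC a b c d e * MC a b c d e = T ∨ MC a b c d e * MC a b c d e * (MC a b c d e * MC a b c d e) = T ∨
    MC a b c d e * MC a b c d e * MC a b c d e = T := by
  decide +kernel

theorem bf4 : ∀ a b c d e : ZMod 3, a * (b * e - c * d) = 1 → MC a b c d e * MC a b c d e = T →
    ∃ a' b' c' d' e' : ZMod 3, a' * (b' * e' - c' * d') = 1 ∧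
      MC a' b' c' d' e' * A4 = MC a b c d e * MC a' b' c' d' e' := by
  decide +kernel

theorem bf6 : ∀ a b c d e : ZMod 3, a * (b * e - c * d) = 1 → MC a b c d e * MC a b c d e * MC a b c d e = T →
    MC a b c d e ≠ T →
    ∃ a' b' c' d' e' : ZMod 3, a' * (b' * e' - c' * d') = 1 ∧
      MC a' b' c' d' e' * A6 = MC a b c d e * MC a' b' c' d' e' := by
  decide +kernel

theorem bf8 : ∀ a b c d e : ZMod 3, a * (b * e - c * d) = 1 →
    MC a b c d e * MC a b c d e * (MC a b c d e * MC a b c d e) = T →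
    ∃ a' b' c' d' e' : ZMod 3, a' * (b' * e' - c' * d') = 1 ∧
      (MC a' b' c' d' e' * A8 = MC a b c d e * MC a' b' c' d' e' ∨
        MC a' b' c' d' e' * A8i = MC a b c d e * MC a' b' c' d' e') := by
  decide +kernel

theorem bfA : ∀ b c : ZMod 3, ¬ (b = 0 ∧ c = 0) →
    ∃ a' b' c' d' e' : ZMod 3, a' * (b' * e' - c' * d') = 1 ∧
      MD a' b' c' d' e' * U1 = MB 1 1 1 0 c b * MD a' b' c' d' e' := by
  decide +kernel

theorem bfB : ∀ a c : ZMod 3, ¬ (a = 0 ∧ c = 0) →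
    ∃ a' b' c' d' e' : ZMod 3, a' * (b' * e' - c' * d') = 1 ∧
      MC a' b' c' d' e' * U1 = MB 1 1 1 a c 0 * MC a' b' c' d' e' := by
  decide +kernel

theorem bfC : ∀ a b c : ZMod 3, a ≠ 0 → b ≠ 0 →
    ∃ x u w y z v : ZMod 3, x * u * w = 1 ∧
      MB x u w y z v * U2 = MB 1 1 1 a c b * MB x u w y z v := by
  decide +kernel

end Cfsg.Agent.H266.M13
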